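import Cfsg.Agent.H6.Ly.H.Q.Tab0

set_option autoImplicit false
set_option maxRecDepth 100000
set_option Elab.async false

namespace Cfsg.H6.Ly.H.Q

theorem p8 : allR (ptU img) 3072 384 = true := by decide +kernel

theorem p9 : allR (ptU img) 3456 384 = true := by decide +kernel

theorem p10 : allR (ptU img) 3840 66 = true := by decide +kernel

theorem q0_0 : allR (ivl img Ws 1 31) 1 30 = true := by decide +kernel

end Cfsg.H6.Ly.H.Q
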