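import Cfsg.Agent.H6.Ly.H.Q.Tab0

set_option autoImplicit false
set_option maxRecDepth 100000
set_option Elab.async false

namespace Cfsg.H6.Ly.H.Q

theorem q1_0 : allR (ivl img Ws 31 781) 31 750 = true := by decide +kernel

theorem q2_0 : allR (ivl img Ws 781 3906) 781 3125 = true := by decide +kernel

end Cfsg.H6.Ly.H.Q
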