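import Cfsg.Agent.H6.Ly.H.Q.Rep
import Cfsg.Agent.H6.Ly.H.Main

set_option autoImplicit false
set_option maxRecDepth 100000
set_option Elab.async false

namespace Cfsg.H6.Ly.H.Q

theorem cover : Cover (gen ev Ws) ⊤ 3906 := top_le_iff.mp top ▸ C1.cover hev hR

def I : List Ivl := [(1, 31, [9]), (31, 781, [7,9]), (781, 3906, [7])]

theorem act : ∃ φ : Grp →* Equiv.Perm ℕ, IsAct φ ev img 3906 77 := by
  obtain ⟨ψ, hψ⟩ := lift rep.1 rep.2.1
  exact ⟨_, rep.2.2.comp ψ hψ⟩

/-- The permutation representation. -/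
noncomputable def φ : Grp →* Equiv.Perm ℕ := act.choose

theorem hφ : IsAct φ ev img 3906 77 := act.choose_spec

theorem prim : Prim φ ev (gen ev Ws) 3906 I :=
  prim_sound hφ cover (List.forall_mem_cons.mpr ⟨iv0 hφ, (List.forall_mem_cons.mpr ⟨iv1 hφ, (List.forall_mem_cons.mpr ⟨iv2 hφ, (by simp)⟩)⟩)⟩) (by decide +kernel)

theorem coatom : IsCoatom (gen ev Ws) :=
  prim.isCoatom hφ hX4 (C := [[], [0,1,0,1,0,3,7,7], [0,8,0,5,6], [0]]) (by decide +kernel)

def lW0 : List (List ℕ) := [[nat_lit 2, nat_lit 2]]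

theorem l0 : lvlChk img 3906 77 [1,0] (3, lW0, unp 3 (nat_lit 0x12000000070000000300)) = true := by
  decide +kernel

def lW1 : List (List ℕ) := [[nat_lit 3], [nat_lit 5]]

theorem l1 : lvlChk img 3906 77 [3,1,0] (2, lW1, unp 24 (nat_lit 0x19000000060100001c010000080000001b01000005000000090000000f00000011000000180000001d0100001d00000017010000170000000e0100000e000000100100001000000015010000150000001a00000006000000020100000200)) = true := by
  decide +kernel

def lW2 : List (List ℕ) := [[nat_lit 1, nat_lit 3, nat_lit 1, nat_lit 4, nat_lit 4, nat_lit 1, nat_lit 3]]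

theorem l2 : lvlChk img 3906 77 [2,3,1,0] (5, lW2, unp 3 (nat_lit 0x60000000d0000000500)) = true := by
  decide +kernel

def lW3 : List (List ℕ) := [[nat_lit 23]]

theorem l3 : lvlChk img 3906 77 [5,2,3,1,0] (4, lW3, unp 4 (nat_lit 0x11000000130000000c0000000400)) = true := by
  decide +kernel

def lW4 : List (List ℕ) := [[nat_lit 5, nat_lit 24, nat_lit 25]]

theorem l4 : lvlChk img 3906 77 [4,5,2,3,1,0] (8, lW4, unp 4 (nat_lit 0x100000000f000000190000000800)) = true := by
  decide +kernel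

def lW5 : List (List ℕ) := [[nat_lit 27]]

theorem l5 : lvlChk img 3906 77 [8,4,5,2,3,1,0] (31, lW5, unp 4 (nat_lit 0x4d000000f1000000fe0000001f00)) = true := by
  decide +kernel

theorem finite : Finite Grp := ub.top.1

def bs : List ℕ := [31,8,4,5,2,3,1,0]

theorem lb : LBn φ ⊤ 3906 bs 5859000000 := by
  have := finite
  exact LBn.cast (((((((prim.lb2 (e := I.head (by decide)) (List.head_mem _)).stepT hφ l0).stepT hφ l1).stepT hφ l2).stepT hφ l3).stepT hφ l4).stepT hφ l5) (by decide +kernel)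

theorem main : Nat.card Grp = 5859000000 ∧ fixS φ bs = ⊥ ∧ Oracle ev img 77 bs := by
  have := finite
  exact lb.oracle hφ ub.top.2

theorem normal (N : Subgroup Grp) [N.Normal] (hN : N ≠ ⊥) :
    ∀ t ∈ ([[1], [3], [5], [7]] : List (List ℕ)), evL ev t ∈ N := by
  have := finite
  exact prim.normal_contains hev coatom lb.2 main.2.1 main.2.2 (p := 31) (k := 1) (j := 1) (by norm_num)
    main.1 (x := [38,3]) (St := [([38,3], [], [3], 8, 5), ([38,3], [], [5], 21, 5), ([5], [71], [7], 3, 4), ([7], [73], [1], 7, 8)]) (by decide +kernel) N hN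

theorem simple : IsSimpleGroup Grp := by
  have := prim.nontrivial
  exact isSimple_of_contains hX4 normal

end Cfsg.H6.Ly.H.Q
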