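import Cfsg.Agent.H6.Ly.H.Pres
import Cfsg.Agent.H6.Ly.H.Q.Chk0
import Cfsg.Agent.H6.Ly.H.Q.Chk1
import Cfsg.Agent.H6.Ly.H.Q.Chk2
import Cfsg.Agent.H6.Ly.H.Q.Chk3

set_option autoImplicit false
set_option maxRecDepth 100000
set_option Elab.async false

namespace Cfsg.H6.Ly.H.Q

theorem ptOK : PtOK img 3906 LS EQS := ptOK_of_chk fun p h1 h2 => by
  rw [← ptU_eq]
  exact (range_join (range_join (range_join (allR_range p0 (by norm_num : 0 + 384 = 384)) (allR_range p1 (by norm_num : 384 + 384 = 768))) (range_join (allR_range p2 (by norm_num : 768 + 384 = 1152)) (range_join (allR_range p3 (by norm_num : 1152 + 384 = 1536)) (allR_range p4 (by norm_num : 1536 + 384 = 1920))))) (range_join (range_join (allR_range p5 (by norm_num : 1920 + 384 = 2304)) (range_join (allR_range p6 (by norm_num : 2304 + 384 = 2688)) (allR_range p7 (by norm_num : 2688 + 384 = 3072)))) (range_join (allR_range p8 (by norm_num : 3072 + 384 = 3456)) (range_join (allR_range p9 (by norm_num : 3456 + 384 = 3840)) (allR_range p10 (by norm_num : 3840 + 66 = 3906)))))) p h1 h2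

theorem hrep : repOK 77 79987250069106366114654310938073778260718840495729940022662670150467856787915972558168942520128750014740085542125883644148830281510701610914542308452160860589049606347793962902086550016 LS EQS D Ly.H.R = true := by decide +kernel

theorem rep : Good (evR img 3906 77) 79987250069106366114654310938073778260718840495729940022662670150467856787915972558168942520128750014740085542125883644148830281510701610914542308452160860589049606347793962902086550016 ∧ Rels (evR img 3906 77) Ly.H.R ∧
    IsAct (MonoidHom.id _) (evR img 3906 77) img 3906 77 := rep_sound ptOK hrep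

theorem iv0 {G : Type*} [Group G] {φ : G →* Equiv.Perm ℕ} {ev : ℕ → G} (h : IsAct φ ev img 3906 77) :
    orb φ (gen ev Ws) 1 = Set.Ico 1 31 :=
  ivl_sound h (by decide +kernel) (allR_range q0_0 (by norm_num : 1 + 30 = 31))

theorem iv1 {G : Type*} [Group G] {φ : G →* Equiv.Perm ℕ} {ev : ℕ → G} (h : IsAct φ ev img 3906 77) :
    orb φ (gen ev Ws) 31 = Set.Ico 31 781 :=
  ivl_sound h (by decide +kernel) (allR_range q1_0 (by norm_num : 31 + 750 = 781))

theorem iv2 {G : Type*} [Group G] {φ : G →* Equiv.Perm ℕ} {ev : ℕ → G} (h : IsAct φ ev img 3906 77) :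
    orb φ (gen ev Ws) 781 = Set.Ico 781 3906 :=
  ivl_sound h (by decide +kernel) (allR_range q2_0 (by norm_num : 781 + 3125 = 3906))


end Cfsg.H6.Ly.H.Q
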